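import Cfsg.Agent.H565.RX.Seven
import Cfsg.Agent.H167.EX.Cen

/-!
# The frames of `E₇`, `E₈`: relations between the involutions `zz` and an element acting as a transvection (helper565)

* `nW` : product of the simple `n_i`; `conj_zz`;
* `data_E7`, `data_E8` : injectivity, relations, `∃ n, n * zz_j * n⁻¹ = zz_(τ j)` in `D.group F`, `F` any field, `2 ≠ 0`.
-/

set_option autoImplicit false
set_option linter.unusedSectionVars false

namespace Cfsg.Agent.H565.RX

open CoxeterSystem Cfsg Cfsg.Lie Cfsg.Lie.ChevalleyDatum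
open Cfsg.Agent.ChevalleyStructure Cfsg.Agent.ChevalleyStructure.Elts Cfsg.Agent.ChevalleyStructure.CoxeterGeom
  Cfsg.Agent.ChevalleyStructure.CoxeterGeomTypes Cfsg.Agent.ChevalleyStructure.NPerm
open Cfsg.Agent.Tits.Roots Cfsg.Agent.Tits.Core Cfsg.Agent.Nodes Cfsg.Agent.Nodes.Reps Cfsg.Agent.Nodes.BNOf
  Cfsg.Agent.Nodes.RGDChev Cfsg.Agent.Nodes.Bruhat Cfsg.Agent.Nodes.NormalForm
open Cfsg.Agent.KFacts.RgdField Cfsg.Agent.KFacts.RgdChevCoord
open Cfsg.Agent.BpExc Cfsg.Agent.BpExc.TorCent Cfsg.Agent.BpExc.TorChev Cfsg.Agent.BpExc.Tow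
  Cfsg.Agent.BpExc.TowChev Cfsg.Agent.BpExc.Fr Cfsg.Agent.BpExc.Pair Cfsg.Agent.BpExc.LangFr Cfsg.Agent.GpExc.Field
  Cfsg.Agent.BpExc.TorAll
open Cfsg.Agent.H469.Exc Cfsg.Agent.H469.Exc.SigFr
open Cfsg.Agent.Nodes.RGDFoldSL Cfsg.Agent.H167.EX Cfsg.Agent.ChevalleyStructure.NConj

universe u

variable {D : ChevalleyDatum} {l : ℕ} {M : CoxeterMatrix (Fin l)} (hp : IsType D l M) {k : Type u} [Field k]

theorem coe_zz {s : ℕ} (hs : s < D.nroots) : ((zz hp (k := k) hs : ↥(D.group k)) : GL D.Idx k) = hG hp.inList s (-1) := by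
  unfold zz
  rw [coe_ph, psi_hS hp.inList hs]

/-! ### the action of words -/

/-- the lift of a simple reflection -/
noncomputable def nE (k : Type u) [Field k] (i : Fin l) : ↥(D.group k) := ⟨nS hp.inList k i, nG_mem_group _ _ _⟩

/-- product of lifts -/
noncomputable def nW (k : Type u) [Field k] (w : List (Fin l)) : ↥(D.group k) := (w.map (nE hp k)).prod

/-- the image of a root index -/
def act (D : ChevalleyDatum) {l : ℕ} (w : List (Fin l)) (s : ℕ) : ℕ := w.foldr (fun i s => D.reflectRoot i s) s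

theorem conj_nE (i : Fin l) {s : ℕ} (hs : s < D.nroots) (h' : D.reflectRoot i s < D.nroots) :
    nE hp k i * zz hp (k := k) hs * (nE hp k i)⁻¹ = zz hp h' := by
  apply Subtype.ext
  rw [Subgroup.coe_mul, Subgroup.coe_mul, Subgroup.coe_inv, coe_zz, coe_zz]
  obtain ⟨η, hη, h1⟩ := conj_h (F := k) hp.inList (lt_rank hp i) hs
  show nS hp.inList k i * hG hp.inList s (-1) * (nS hp.inList k i)⁻¹ = _
  rw [h1]
  have h2 : hG hp.inList (D.reflectRoot i s) (1 : k) = 1 := by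
    have h3 : (hS (1 : k) : SL k) = 1 := by
      apply Subtype.ext
      rw [coe_hS one_ne_zero, inv_one]
      ext a b
      fin_cases a <;> fin_cases b <;> simp
    rw [← psi_hS hp.inList h', h3, map_one]
  have h3 : hG hp.inList (D.reflectRoot i s) (-1 : k) ^ 2 = 1 := by
    rw [← psi_hS hp.inList h', ← map_pow, hS_neg_sq, map_one]
  rcases hη with rfl | rfl
  · rw [one_mul, h2, inv_one, mul_one]
  · rw [neg_mul_neg, one_mul, h2, one_mul]
    exact inv_eq_of_mul_eq_one_left (by rw [← sq, h3])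

include hp in
theorem act_lt (w : List (Fin l)) {s : ℕ} (hs : s < D.nroots) : act D w s < D.nroots := by
  induction w with
  | nil => exact hs
  | cons i w ih => exact Reach.reflect_lt hp.inList (lt_rank hp i) ih

theorem conj_nW (w : List (Fin l)) {s : ℕ} (hs : s < D.nroots) :
    nW hp k w * zz hp (k := k) hs * (nW hp k w)⁻¹ = zz hp (act_lt hp w hs) := by
  induction w with
  | nil => simp [nW, act]
  | cons i w ih =>
    have e : nW hp k (i :: w) = nE hp k i * nW hp k w := by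
      unfold nW
      rw [List.map_cons, List.prod_cons]
    rw [e, mul_inv_rev]
    calc nE hp k i * nW hp k w * zz hp hs * ((nW hp k w)⁻¹ * (nE hp k i)⁻¹) =
        nE hp k i * (nW hp k w * zz hp hs * (nW hp k w)⁻¹) * (nE hp k i)⁻¹ := by group
      _ = _ := by rw [ih, conj_nE hp i (act_lt hp w hs) (act_lt hp (i :: w) hs)]; rfl

/-! ### relations -/

theorem coe_zz_mat {s : ℕ} (hs : s < D.nroots) : ((zz hp (k := k) hs : GL D.Idx k) : Matrix D.Idx D.Idx k) =
    Matrix.diagonal (Sum.elim (fun _ => (1 : k)) (fun r : Fin D.nroots => (-1) ^ HMatDiagAll.expo D s r.val)) :=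
  coe_ph_hS hp hs (neg_ne_zero.2 one_ne_zero)

theorem neg_one_zpow_mod {a b : ℤ} (h : (a - b) % 2 = 0) : (-1 : k) ^ a = (-1) ^ b := by
  have h1 : Even (a - b) := Int.even_iff.2 h
  have h2 : (-1 : k) ^ (a - b) = 1 := h1.neg_one_zpow
  rw [zpow_sub₀ (neg_ne_zero.2 one_ne_zero)] at h2
  exact (div_eq_one_iff_eq (zpow_ne_zero _ (neg_ne_zero.2 one_ne_zero))).1 h2

theorem zz_congr {s s' : ℕ} (hs : s < D.nroots) (hs' : s' < D.nroots)
    (h : ∀ r < D.nroots, (HMatDiagAll.expo D s r - HMatDiagAll.expo D s' r) % 2 = 0) : zz hp (k := k) hs = zz hp hs' := by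
  apply Subtype.ext
  apply Units.ext
  rw [coe_zz_mat, coe_zz_mat]
  congr 1
  funext x
  rcases x with x | x
  · rfl
  · exact neg_one_zpow_mod (h x x.2)

theorem zz_mul {a b c : ℕ} (ha : a < D.nroots) (hb : b < D.nroots) (hc : c < D.nroots)
    (h : ∀ r < D.nroots, (HMatDiagAll.expo D a r + HMatDiagAll.expo D b r - HMatDiagAll.expo D c r) % 2 = 0) :
    zz hp (k := k) ha * zz hp hb = zz hp hc := by
  apply Subtype.ext
  apply Units.ext
  rw [Subgroup.coe_mul, Units.val_mul, coe_zz_mat, coe_zz_mat, coe_zz_mat, Matrix.diagonal_mul_diagonal]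
  congr 1
  funext x
  rcases x with x | x
  · exact one_mul _
  · show (-1 : k) ^ _ * (-1) ^ _ = (-1) ^ _
    rw [← zpow_add₀ (neg_ne_zero.2 one_ne_zero)]
    exact neg_one_zpow_mod (h x x.2)

theorem zz_mul_mul {a b c d : ℕ} (ha : a < D.nroots) (hb : b < D.nroots) (hc : c < D.nroots) (hd : d < D.nroots)
    (h : ∀ r < D.nroots, (HMatDiagAll.expo D a r + HMatDiagAll.expo D b r + HMatDiagAll.expo D c r -
      HMatDiagAll.expo D d r) % 2 = 0) : zz hp (k := k) ha * zz hp hb * zz hp hc = zz hp hd := by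
  apply Subtype.ext
  apply Units.ext
  rw [Subgroup.coe_mul, Subgroup.coe_mul, Units.val_mul, Units.val_mul, coe_zz_mat, coe_zz_mat, coe_zz_mat, coe_zz_mat,
    Matrix.diagonal_mul_diagonal, Matrix.diagonal_mul_diagonal]
  congr 1
  funext x
  rcases x with x | x
  · show (1 : k) * 1 * 1 = 1
    rw [one_mul, one_mul]
  · show (-1 : k) ^ _ * (-1) ^ _ * (-1) ^ _ = (-1) ^ _
    rw [← zpow_add₀ (neg_ne_zero.2 one_ne_zero), ← zpow_add₀ (neg_ne_zero.2 one_ne_zero)]
    exact neg_one_zpow_mod (h x x.2)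

theorem zz_ne {a b : ℕ} (h2 : (2 : k) ≠ 0) (ha : a < D.nroots) (hb : b < D.nroots)
    (h : ∃ r < D.nroots, (HMatDiagAll.expo D a r - HMatDiagAll.expo D b r) % 2 ≠ 0) :
    zz hp (k := k) ha ≠ zz hp hb := by
  intro he
  obtain ⟨r, hr, hne⟩ := h
  have h1 : ((zz hp (k := k) ha : GL D.Idx k) : Matrix D.Idx D.Idx k) = ((zz hp (k := k) hb : GL D.Idx k) : Matrix D.Idx D.Idx k) := by
    rw [he]
  rw [coe_zz_mat, coe_zz_mat] at h1
  have h3 := congrFun (congrFun h1 (Sum.inr ⟨r, hr⟩)) (Sum.inr ⟨r, hr⟩)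
  rw [Matrix.diagonal_apply_eq, Matrix.diagonal_apply_eq] at h3
  have h4 : (-1 : k) ^ HMatDiagAll.expo D a r = (-1) ^ HMatDiagAll.expo D b r := h3
  have h5 : Odd (HMatDiagAll.expo D a r - HMatDiagAll.expo D b r) := Int.odd_iff.2 (by omega)
  have h6 : (-1 : k) ^ (HMatDiagAll.expo D a r - HMatDiagAll.expo D b r) = -1 := h5.neg_one_zpow
  rw [zpow_sub₀ (neg_ne_zero.2 one_ne_zero), h4, div_self (zpow_ne_zero _ (neg_ne_zero.2 one_ne_zero))] at h6
  exact h2 (by linear_combination h6)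

/-! ### the frames -/

/-- the frame of `E₇` -/
def s7 : Fin 7 → ℕ := ![0, 33, 38, 47, 52, 59, 62]
/-- the frame of `E₈` -/
def s8 : Fin 8 → ℕ := ![0, 13, 80, 87, 98, 104, 113, 118]

theorem lt7 : ∀ j, s7 j < chevE7.nroots := by decide +kernel
theorem lt8 : ∀ j, s8 j < chevE8.nroots := by decide +kernel

/-- the word -/
def w7 : List (Fin 7) := [2, 3, 1, 3, 2, 3]
/-- the word -/
def w8 : List (Fin 8) := [2, 3, 1, 3, 2, 3]

/-- parities of the pairings of the root `r` with a list -/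
def pv (D : ChevalleyDatum) (L : List ℕ) (r : ℕ) : List Bool := L.map fun s => decide (HMatDiagAll.expo D s r % 2 = 1)

/-- the simplex code -/
def code7 : List (List Bool) := (List.range 8).map fun m =>
  (List.ofFn lam7).map fun x => ((m &&& x).testBit 0 ^^ ((m &&& x).testBit 1 ^^ (m &&& x).testBit 2))

/-- the affine functions -/
def code8 : List (List Bool) := (List.range 16).map fun m =>
  (List.ofFn lam8).map fun x => (m.testBit 3 ^^ ((m &&& x).testBit 0 ^^ ((m &&& x).testBit 1 ^^ (m &&& x).testBit 2)))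

theorem in7 : ∀ r < chevE7.nroots, pv chevE7 (List.ofFn s7) r ∈ code7 := by decide +kernel

theorem in8 : ∀ r < chevE8.nroots, pv chevE8 (List.ofFn s8) r ∈ code8 := by decide +kernel

theorem lin7 : ∀ v ∈ code7, ∀ a b : Fin 7, a ≠ b →
    (v.getD a.val false ^^ v.getD b.val false) = v.getD (third a b).val false := by decide +kernel

theorem lin8 : ∀ v ∈ code8, ∀ a b c : Fin 8, a ≠ b → c ≠ a → c ≠ b →
    (v.getD a.val false ^^ (v.getD b.val false ^^ v.getD c.val false)) = v.getD (fourth a b c).val false := by decide +kernel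

theorem sep7 : ∀ a b : Fin 7, a ≠ b → ∃ r ∈ [12, 39, 41], r < chevE7.nroots ∧
    (HMatDiagAll.expo chevE7 (s7 a) r - HMatDiagAll.expo chevE7 (s7 b) r) % 2 ≠ 0 := by decide +kernel

theorem sep8 : ∀ a b : Fin 8, a ≠ b → ∃ r ∈ [50, 89, 91], r < chevE8.nroots ∧
    (HMatDiagAll.expo chevE8 (s8 a) r - HMatDiagAll.expo chevE8 (s8 b) r) % 2 ≠ 0 := by decide +kernel

theorem act7 : ∀ j : Fin 7, act chevE7 w7 (s7 j) = s7 (tau7 j) ∨ ∀ r < chevE7.nroots,
    (HMatDiagAll.expo chevE7 (act chevE7 w7 (s7 j)) r - HMatDiagAll.expo chevE7 (s7 (tau7 j)) r) % 2 = 0 := by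
  decide +kernel

theorem act8 : ∀ j : Fin 8, act chevE8 w8 (s8 j) = s8 (tau8 j) ∨ ∀ r < chevE8.nroots,
    (HMatDiagAll.expo chevE8 (act chevE8 w8 (s8 j)) r - HMatDiagAll.expo chevE8 (s8 (tau8 j)) r) % 2 = 0 := by
  decide +kernel

theorem pv_get {D : ChevalleyDatum} {m : ℕ} (s : Fin m → ℕ) (r : ℕ) (a : Fin m) :
    (pv D (List.ofFn s) r).getD a.val false = decide (HMatDiagAll.expo D (s a) r % 2 = 1) := by
  unfold pv
  rw [List.map_ofFn]
  simp [List.getD_eq_getElem?_getD]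

/-! ### the data -/

theorem inj7 {M' : CoxeterMatrix (Fin 7)} (hp : IsType chevE7 7 M') (h2 : (2 : k) ≠ 0) : Function.Injective fun j => zz hp (k := k) (lt7 j) := by
  intro a b h
  by_contra hab
  obtain ⟨r, -, hr, h1⟩ := sep7 a b hab
  exact zz_ne hp h2 (lt7 a) (lt7 b) ⟨r, hr, h1⟩ h

theorem inj8 {M' : CoxeterMatrix (Fin 8)} (hp : IsType chevE8 8 M') (h2 : (2 : k) ≠ 0) : Function.Injective fun j => zz hp (k := k) (lt8 j) := by
  intro a b h
  by_contra hab
  obtain ⟨r, -, hr, h1⟩ := sep8 a b hab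
  exact zz_ne hp h2 (lt8 a) (lt8 b) ⟨r, hr, h1⟩ h

theorem rel7 {M' : CoxeterMatrix (Fin 7)} (hp : IsType chevE7 7 M') (a b : Fin 7) (hab : a ≠ b) :
    zz hp (k := k) (lt7 a) * zz hp (lt7 b) = zz hp (lt7 (third a b)) := by
  refine zz_mul hp (lt7 a) (lt7 b) (lt7 (third a b)) fun r hr => ?_
  have h1 := lin7 _ (in7 r hr) a b hab
  rw [pv_get, pv_get, pv_get] at h1
  rcases Int.emod_two_eq_zero_or_one (HMatDiagAll.expo chevE7 (s7 a) r) with h3 | h3 <;>
    rcases Int.emod_two_eq_zero_or_one (HMatDiagAll.expo chevE7 (s7 b) r) with h4 | h4 <;>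
    rcases Int.emod_two_eq_zero_or_one (HMatDiagAll.expo chevE7 (s7 (third a b)) r) with h5 | h5 <;>
    rw [h3, h4, h5] at h1 <;> first | omega | (exfalso; revert h1; decide)

theorem rel8 {M' : CoxeterMatrix (Fin 8)} (hp : IsType chevE8 8 M') (a b c : Fin 8) (hab : a ≠ b) (hac : a ≠ c) (hbc : b ≠ c) :
    zz hp (k := k) (lt8 a) * zz hp (lt8 b) * zz hp (lt8 c) = zz hp (lt8 (fourth a b c)) := by
  refine zz_mul_mul hp (lt8 a) (lt8 b) (lt8 c) (lt8 (fourth a b c)) fun r hr => ?_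
  have h1 := lin8 _ (in8 r hr) a b c hab hac.symm hbc.symm
  rw [pv_get, pv_get, pv_get, pv_get] at h1
  rcases Int.emod_two_eq_zero_or_one (HMatDiagAll.expo chevE8 (s8 a) r) with h3 | h3 <;>
    rcases Int.emod_two_eq_zero_or_one (HMatDiagAll.expo chevE8 (s8 b) r) with h4 | h4 <;>
    rcases Int.emod_two_eq_zero_or_one (HMatDiagAll.expo chevE8 (s8 c) r) with h6 | h6 <;>
    rcases Int.emod_two_eq_zero_or_one (HMatDiagAll.expo chevE8 (s8 (fourth a b c)) r) with h5 | h5 <;>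
    rw [h3, h4, h5, h6] at h1 <;> first | omega | (exfalso; revert h1; decide)

theorem conj7 {M' : CoxeterMatrix (Fin 7)} (hp : IsType chevE7 7 M') (j : Fin 7) :
    nW hp k w7 * zz hp (k := k) (lt7 j) * (nW hp k w7)⁻¹ = zz hp (lt7 (tau7 j)) := by
  rw [conj_nW]
  refine zz_congr hp _ _ fun r hr => ?_
  rcases act7 j with h | h
  · rw [h, sub_self]; rfl
  · exact h r hr

theorem conj8 {M' : CoxeterMatrix (Fin 8)} (hp : IsType chevE8 8 M') (j : Fin 8) :
    nW hp k w8 * zz hp (k := k) (lt8 j) * (nW hp k w8)⁻¹ = zz hp (lt8 (tau8 j)) := by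
  rw [conj_nW]
  refine zz_congr hp _ _ fun r hr => ?_
  rcases act8 j with h | h
  · rw [h, sub_self]; rfl
  · exact h r hr

/-! ### embeddings -/

theorem emb_nW {F : Type u} [Field F] (f : F →+* k) (w : List (Fin l)) : emb hp.inList f (nW hp F w) = nW hp k w := by
  unfold nW
  rw [map_list_prod, List.map_map]
  congr 1
  refine List.map_congr_left fun i _ => ?_
  apply Subtype.ext
  show glMap D f (nG hp.inList (D.simple i) 1) = nG hp.inList (D.simple i) 1
  rw [glMap_nG hp, map_one]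

/-! ### the final form -/

/-- **type `E₇`**: odd elements centralise the frame -/
theorem odd_E7 {M' : CoxeterMatrix (Fin 7)} (hp : IsType chevE7 7 M') (h2 : (2 : k) ≠ 0) {K : Subgroup ↥(chevE7.group k)} [Finite K]
    (h3 : ¬ 3 ∣ Nat.card K) (hperm : ∀ x ∈ K, ∀ i, ∃ j, x * zz hp (k := k) (lt7 i) * x⁻¹ = zz hp (lt7 j))
    {t : ↥(chevE7.group k)} (ht : t ∈ K) (hτ : ∀ i, t * zz hp (k := k) (lt7 i) * t⁻¹ = zz hp (lt7 (tau7 i)))
    {x : ↥(chevE7.group k)} (hx : x ∈ K) (hodd : Odd (orderOf x)) (i : Fin 7) :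
    x * zz hp (k := k) (lt7 i) = zz hp (lt7 i) * x :=
  odd_fix7 (z := fun i => zz hp (k := k) (lt7 i)) (inj7 hp h2) (fun a b hab => rel7 hp a b hab) h3 hperm ht hτ hx hodd i

/-- **type `E₈`**: odd elements centralise the frame -/
theorem odd_E8 {M' : CoxeterMatrix (Fin 8)} (hp : IsType chevE8 8 M') (h2 : (2 : k) ≠ 0) {K : Subgroup ↥(chevE8.group k)} [Finite K]
    (h3 : ¬ 3 ∣ Nat.card K) (hperm : ∀ x ∈ K, ∀ i, ∃ j, x * zz hp (k := k) (lt8 i) * x⁻¹ = zz hp (lt8 j))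
    {t : ↥(chevE8.group k)} (ht : t ∈ K) (hτ : ∀ i, t * zz hp (k := k) (lt8 i) * t⁻¹ = zz hp (lt8 (tau8 i)))
    {x : ↥(chevE8.group k)} (hx : x ∈ K) (hodd : Odd (orderOf x)) (i : Fin 8) :
    x * zz hp (k := k) (lt8 i) = zz hp (lt8 i) * x :=
  odd_fix8 (z := fun i => zz hp (k := k) (lt8 i)) (inj8 hp h2) (fun a b c h1 h2 h3 => rel8 hp a b c h1 h2 h3) h3 hperm
    ht hτ hx hodd i

theorem tau7_tau7 : ∀ i, tau7 (tau7 i) = i := by decide
theorem tau8_tau8 : ∀ i, tau8 (tau8 i) = i := by decide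

/-- **the `2`-group**, any type: `S → D.group k` a homomorphism with `zz_i`, the quaternion group ... in its image up to `z` -/
theorem two_of {S : Type*} [Group S] [Finite S] {Γ : Type u} [Group Γ] {f : S →* Γ} (hf : Function.Injective f) {ι : Type*}
    {ζ : ι → Γ} {τ : ι → ι} (hτ : ∀ i, τ (τ i) = i) (hζ : ∀ i, ζ i ∈ f.range) {n : Γ} (hn : n ∈ f.range)
    (hnζ : ∀ i, n * ζ i * n⁻¹ = ζ (τ i)) {Q : Subgroup S} (hQ : IsPGroup 2 Q)
    (hQz : ∀ q ∈ Q, ∀ i, f q * ζ i = ζ i * f q) :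
    ∃ P : Subgroup S, IsPGroup 2 P ∧ Q ≤ P ∧ ∃ t ∈ P, ∀ i, f t * ζ i * (f t)⁻¹ = ζ (τ i) := by
  choose z hz using hζ
  obtain ⟨n', rfl⟩ := hn
  obtain ⟨P, hP, hQP, t, ht, htz⟩ := exists_two (z := z) (τ := τ) hτ (n := n') (fun i => hf (by
    rw [map_mul, map_mul, map_inv, hz, hz]
    exact hnζ i)) hQ (fun q hq i => hf (by
    rw [map_mul, map_mul, hz]
    exact hQz q hq i))
  refine ⟨P, hP, hQP, t, ht, fun i => ?_⟩
  rw [← hz, ← hz, ← map_inv, ← map_mul, ← map_mul, htz]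

end Cfsg.Agent.H565.RX
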